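import Mathlib
import Cfsg.Agent.Lib.SolvableNormalP
import Cfsg.Agent.OddOrderCharacters.PF9.SectionModule
import Cfsg.Prelude.Def_Blocks
import Cfsg.Agent.OddOrderCharacters.PF9.KernelAux
import Cfsg.Agent.S0857
import Cfsg.Agent.S0854
import Cfsg.Agent.CharactersDeep.CliffordSum
set_option linter.all false

-- part: H725/AvgFix
section
/-!
# The average dimension of the fixed spaces on a coset of an abelian group

`two_mul_sum_le`: a finite abelian group `M` of order prime to the characteristic acts on `V`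
without fixed vectors on the invariant subspace `U`, and `h` normalises this action. Then the
average of `dim C_U(h m)`, `m ∈ M`, is at most `dim U / 2`.
-/

set_option autoImplicit false

namespace Cfsg.Agent.H725.AvgFix

open Module

section core

variable {F V : Type*} [Field F] [AddCommGroup V] [Module F V]

/-- The fixed space of an operator. -/
def fx (T : V →ₗ[F] V) : Submodule F V := LinearMap.ker (T - LinearMap.id)

theorem mem_fx {T : V →ₗ[F] V} {v : V} : v ∈ fx T ↔ T v = v := by
  rw [fx, LinearMap.mem_ker, LinearMap.sub_apply, LinearMap.id_apply, sub_eq_zero]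

variable {M : Type*} [CommGroup M] (ρ : M →* Module.End F V)

theorem rho_rho (a b : M) (v : V) : ρ a (ρ b v) = ρ (a * b) v := by
  rw [map_mul]; rfl

theorem rho_inj (m : M) : Function.Injective (ρ m) := by
  intro a b hab
  have h3 := congrArg (ρ m⁻¹) hab
  rwa [rho_rho, rho_rho, inv_mul_cancel, map_one, Module.End.one_apply,
    Module.End.one_apply] at h3

/-- Averaging over a subgroup. -/
noncomputable def av (Y : Subgroup M) : Module.End F V :=
  (Nat.card Y : F)⁻¹ • ∑ᶠ y : Y, ρ y

variable [Finite M]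

theorem av_apply (Y : Subgroup M) (v : V) :
    av ρ Y v = (Nat.card Y : F)⁻¹ • ∑ᶠ y : Y, ρ y v := by
  classical
  have : Fintype Y := Fintype.ofFinite Y
  rw [av, finsum_eq_sum_of_fintype, finsum_eq_sum_of_fintype, LinearMap.smul_apply,
    LinearMap.sum_apply]

omit [Finite M] in
theorem card_ne {Y : Subgroup M} (hM : (Nat.card M : F) ≠ 0) : (Nat.card Y : F) ≠ 0 := by
  intro h
  obtain ⟨k, hk⟩ := Y.card_subgroup_dvd_card
  apply hM
  rw [hk, Nat.cast_mul, h, zero_mul]

theorem av_of_fixed (hM : (Nat.card M : F) ≠ 0) {Y : Subgroup M} {v : V}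
    (hv : ∀ y ∈ Y, ρ y v = v) : av ρ Y v = v := by
  classical
  have : Fintype Y := Fintype.ofFinite Y
  rw [av_apply, finsum_eq_sum_of_fintype]
  have h1 : ∑ y : Y, ρ (y : M) v = (Nat.card Y : F) • v := by
    have h2 : ∀ y : Y, ρ (y : M) v = v := fun y => hv y y.2
    rw [Finset.sum_congr rfl (fun y _ => h2 y), Finset.sum_const, Finset.card_univ,
      Nat.card_eq_fintype_card, Nat.cast_smul_eq_nsmul]
  rw [h1, smul_smul, inv_mul_cancel₀ (card_ne hM), one_smul]

theorem fixed_av {Y : Subgroup M} {y : M} (hy : y ∈ Y) (v : V) :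
    ρ y (av ρ Y v) = av ρ Y v := by
  classical
  have : Fintype Y := Fintype.ofFinite Y
  rw [av_apply, finsum_eq_sum_of_fintype, map_smul, map_sum]
  congr 1
  refine Fintype.sum_equiv (Equiv.mulLeft (⟨y, hy⟩ : Y)) _ _ fun z => ?_
  rw [Equiv.coe_mulLeft, Subgroup.coe_mul, map_mul]
  rfl

theorem av_comm (Y : Subgroup M) (m : M) (v : V) : ρ m (av ρ Y v) = av ρ Y (ρ m v) := by
  classical
  have : Fintype Y := Fintype.ofFinite Y
  rw [av_apply, av_apply, finsum_eq_sum_of_fintype, finsum_eq_sum_of_fintype, map_smul, map_sum]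
  congr 1
  refine Finset.sum_congr rfl fun z _ => ?_
  rw [← Module.End.mul_apply, ← Module.End.mul_apply, ← map_mul, ← map_mul, mul_comm]

theorem av_mem {U : Submodule F V} (hU : ∀ (m : M), ∀ u ∈ U, ρ m u ∈ U) (Y : Subgroup M) {u : V}
    (hu : u ∈ U) : av ρ Y u ∈ U := by
  classical
  have : Fintype Y := Fintype.ofFinite Y
  rw [av_apply, finsum_eq_sum_of_fintype]
  exact U.smul_mem _ (U.sum_mem fun y _ => hU y u hu)

/-- The permutation of the subgroups induced by an automorphism. -/
def tau (σ : M ≃* M) : Equiv.Perm (Subgroup M) := (MulEquiv.mapSubgroup σ).toEquiv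

omit [Finite M] in
theorem mem_tau {σ : M ≃* M} {Y : Subgroup M} {m : M} :
    σ m ∈ tau σ Y ↔ m ∈ Y := by
  show σ m ∈ Y.map σ.toMonoidHom ↔ _
  rw [Subgroup.mem_map]
  constructor
  · rintro ⟨y, hy, h⟩
    rwa [← σ.injective h]
  · intro h
    exact ⟨m, h, rfl⟩

omit [Finite M] in
theorem card_tau (σ : M ≃* M) (Y : Subgroup M) : Nat.card (tau σ Y) = Nat.card Y := by
  show Nat.card (Y.map σ.toMonoidHom) = _
  exact Subgroup.card_map_of_injective σ.injective

theorem av_tau {σ : M ≃* M} {T : V →ₗ[F] V}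
    (hT : ∀ m v, T (ρ m v) = ρ (σ m) (T v)) (Y : Subgroup M) (v : V) :
    T (av ρ Y v) = av ρ (tau σ Y) (T v) := by
  classical
  have : Fintype Y := Fintype.ofFinite Y
  have : Fintype (tau σ Y) := Fintype.ofFinite _
  rw [av_apply, av_apply, finsum_eq_sum_of_fintype, finsum_eq_sum_of_fintype, map_smul, map_sum,
    card_tau]
  congr 1
  let e : Y ≃ tau σ Y :=
    { toFun := fun y => ⟨σ y, mem_tau.2 y.2⟩
      invFun := fun y => ⟨σ.symm y, by
        have h := y.2
        rw [← σ.apply_symm_apply (y : M)] at h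
        exact mem_tau.1 h⟩
      left_inv := fun y => by ext; simp
      right_inv := fun y => by ext; simp }
  exact Fintype.sum_equiv e _ _ fun y => hT y v

/-- Case where the subgroup is not normalised: a bound for each element. -/
theorem bound_of_orbit [FiniteDimensional F V] {σ : M ≃* M}
    {T : V →ₗ[F] V} (hTinj : Function.Injective T) (hT : ∀ m v, T (ρ m v) = ρ (σ m) (T v))
    {U : Submodule F V} (hU : ∀ (m : M), ∀ u ∈ U, ρ m u ∈ U) (hTU : ∀ u ∈ U, T u ∈ U)
    {Y : Subgroup M} (hdis : ∀ u ∈ U, (∀ y ∈ Y, ρ y u = u) → (∀ y ∈ tau σ Y, ρ y u = u) → u = 0)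
    (hspan : ∀ u ∈ U, (∀ i : ℕ, av ρ ((tau σ ^ i) Y) u = 0) → u = 0) :
    2 * finrank F ↥(U ⊓ fx T) ≤ finrank F U := by
  classical
  -- the fixed space of `Y`
  let W : Submodule F V := U ⊓ (⨅ y : Y, fx (ρ y))
  have hW : ∀ {w : V}, w ∈ W ↔ w ∈ U ∧ ∀ y ∈ Y, ρ y w = w := by
    intro w
    simp only [W, Submodule.mem_inf, Submodule.mem_iInf, mem_fx, Subtype.forall]
  -- injection
  have h1 : finrank F ↥(U ⊓ fx T) ≤ finrank F W := by
    let f : ↥(U ⊓ fx T) →ₗ[F] W :=
      ((av ρ Y).domRestrict (U ⊓ fx T)).codRestrict W (fun u => by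
        rw [hW]
        exact ⟨av_mem ρ hU Y u.2.1, fun y hy => fixed_av ρ hy _⟩)
    refine LinearMap.finrank_le_finrank_of_injective (f := f) ?_
    rw [← LinearMap.ker_eq_bot, LinearMap.ker_eq_bot']
    rintro ⟨u, hu⟩ hfu
    have h0 : av ρ Y u = 0 := congrArg Subtype.val hfu
    apply Subtype.ext
    show u = 0
    apply hspan u hu.1
    intro i
    induction i with
    | zero => simpa using h0
    | succ i ih =>
      rw [pow_succ', Equiv.Perm.mul_apply]
      have h2 := av_tau ρ hT ((tau σ ^ i) Y) u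
      rw [ih, map_zero, mem_fx.1 hu.2] at h2
      exact h2.symm
  have h2 : 2 * finrank F W ≤ finrank F U := by
    have hmap : W.map T ≤ U := by
      rintro _ ⟨w, hw, rfl⟩
      exact hTU w (hW.1 hw).1
    have hd : Disjoint W (W.map T) := by
      rw [Submodule.disjoint_def]
      rintro x hx ⟨w, hw, rfl⟩
      refine hdis _ (hW.1 hx).1 (hW.1 hx).2 ?_
      intro y hy
      have hy' : σ.symm y ∈ Y := by
        rw [← σ.apply_symm_apply y] at hy
        exact mem_tau.1 hy
      have := hT (σ.symm y) w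
      rw [σ.apply_symm_apply, (hW.1 hw).2 _ hy'] at this
      exact this.symm
    have h3 := Submodule.finrank_sup_add_finrank_inf_eq W (W.map T)
    rw [hd.eq_bot, finrank_bot, add_zero] at h3
    have h4 : finrank F (W.map T) = finrank F W :=
      (LinearEquiv.finrank_eq (Submodule.equivMapOfInjective T hTinj W)).symm
    have h5 : finrank F ↥(W ⊔ W.map T) ≤ finrank F U :=
      Submodule.finrank_mono (sup_le inf_le_left hmap)
    omega
  omega

/-- The stabiliser of a vector. -/
def st (u : V) : Subgroup M where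
  carrier := {m | ρ m u = u}
  one_mem' := by simp
  mul_mem' := by
    intro a b ha hb
    simp only [Set.mem_ofPred_eq] at ha hb ⊢
    rw [map_mul, Module.End.mul_apply, hb, ha]
  inv_mem' := by
    intro a ha
    simp only [Set.mem_ofPred_eq] at ha ⊢
    have : ρ (a⁻¹ * a) u = u := by rw [inv_mul_cancel, map_one]; rfl
    rwa [map_mul, Module.End.mul_apply, ha] at this

omit [Finite M] in
theorem mem_st {u : V} {m : M} : m ∈ st ρ u ↔ ρ m u = u := Iff.rfl

omit [Finite M] in
theorem le_st {u : V} {Y : Subgroup M} : Y ≤ st ρ u ↔ ∀ y ∈ Y, ρ y u = u := Iff.rfl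

/-- The orbit of a subgroup. -/
noncomputable def orb (σ : M ≃* M) (Y : Subgroup M) : Finset (Subgroup M) :=
  (Set.toFinite {Z : Subgroup M | (tau σ).SameCycle Y Z}).toFinset

theorem mem_orb {σ : M ≃* M} {Y Z : Subgroup M} : Z ∈ orb σ Y ↔ (tau σ).SameCycle Y Z := by
  rw [orb, Set.Finite.mem_toFinset]
  rfl

/-- The projection to the sum of the fixed spaces of the members of an orbit. -/
noncomputable def ee (σ : M ≃* M) (Y : Subgroup M) : Module.End F V := ∑ Z ∈ orb σ Y, av ρ Z

theorem ee_apply (σ : M ≃* M) (Y : Subgroup M) (v : V) :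
    ee ρ σ Y v = ∑ Z ∈ orb σ Y, av ρ Z v := by
  rw [ee, LinearMap.sum_apply]

theorem ee_comm {σ : M ≃* M} {T : V →ₗ[F] V}
    (hT : ∀ m v, T (ρ m v) = ρ (σ m) (T v)) (Y : Subgroup M) (v : V) :
    T (ee ρ σ Y v) = ee ρ σ Y (T v) := by
  rw [ee_apply, ee_apply, map_sum]
  refine Finset.sum_equiv (tau σ) ?_ ?_
  · intro Z
    rw [mem_orb, mem_orb, Equiv.Perm.sameCycle_apply_right]
  · intro Z _
    exact av_tau ρ hT Z v

theorem ee_rho (σ : M ≃* M) (Y : Subgroup M) (m : M) (v : V) :
    ρ m (ee ρ σ Y v) = ee ρ σ Y (ρ m v) := by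
  rw [ee_apply, ee_apply, map_sum]
  exact Finset.sum_congr rfl fun Z _ => av_comm ρ Z m v

theorem card_orb {σ : M ≃* M} {Y Z : Subgroup M} (h : Z ∈ orb σ Y) : Nat.card Z = Nat.card Y := by
  rw [mem_orb] at h
  obtain ⟨i, -, rfl⟩ := h.exists_pow_eq'
  clear h
  induction i with
  | zero => rfl
  | succ i ih => rw [pow_succ', Equiv.Perm.mul_apply, card_tau, ih]

/-- **The average bound.** -/
theorem two_mul_sum_le (hM : (Nat.card M : F) ≠ 0) [FiniteDimensional F V] {σ : M ≃* M}
    {h : V →ₗ[F] V} (hinj : Function.Injective h) (hh : ∀ m v, h (ρ m v) = ρ (σ m) (h v)) (n : ℕ) :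
    ∀ (U : Submodule F V), finrank F U = n → (∀ (m : M), ∀ u ∈ U, ρ m u ∈ U) →
      (∀ u ∈ U, h u ∈ U) → (∀ u ∈ U, (∀ m : M, ρ m u = u) → u = 0) →
      2 * ∑ᶠ m : M, finrank F ↥(U ⊓ fx (h ∘ₗ ρ m)) ≤ Nat.card M * finrank F U := by
  classical
  have : Fintype M := Fintype.ofFinite M
  induction n using Nat.strong_induction_on with | _ n ih =>
  intro U hn hU hhU h0
  rw [finsum_eq_sum_of_fintype]
  by_cases hUbot : U = ⊥
  · subst hUbot
    have : ∀ m : M, finrank F ↥((⊥ : Submodule F V) ⊓ fx (h ∘ₗ ρ m)) = 0 := by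
      intro m
      rw [bot_inf_eq, finrank_bot]
    simp [this]
  obtain ⟨v₀, hv₀, hv₀0⟩ := (Submodule.ne_bot_iff U).1 hUbot
  -- the choice of `Y`
  have hSfin : {Y : Subgroup M | ∃ u ∈ U, u ≠ 0 ∧ Y ≤ st ρ u}.Finite := Set.toFinite _
  have hSne : {Y : Subgroup M | ∃ u ∈ U, u ≠ 0 ∧ Y ≤ st ρ u}.Nonempty :=
    ⟨⊥, v₀, hv₀, hv₀0, bot_le⟩
  obtain ⟨Y, hYS, hYmax⟩ := Set.exists_max_image _ (fun Y : Subgroup M => Nat.card Y) hSfin hSne
  obtain ⟨v, hv, hv0, hYv⟩ := hYS
  have hdisj : ∀ Z₁ Z₂ : Subgroup M, Nat.card Z₁ = Nat.card Y → Nat.card Z₂ = Nat.card Y →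
      Z₁ ≠ Z₂ → ∀ u ∈ U, Z₁ ≤ st ρ u → Z₂ ≤ st ρ u → u = 0 := by
    intro Z₁ Z₂ hc₁ hc₂ hne u hu h₁ h₂
    by_contra hu0
    have hle := hYmax (Z₁ ⊔ Z₂) ⟨u, hu, hu0, sup_le h₁ h₂⟩
    have e₁ : Z₁ = Z₁ ⊔ Z₂ := Subgroup.eq_of_le_of_card_ge le_sup_left (hle.trans_eq hc₁.symm)
    have e₂ : Z₂ = Z₁ ⊔ Z₂ := Subgroup.eq_of_le_of_card_ge le_sup_right (hle.trans_eq hc₂.symm)
    exact hne (e₁.trans e₂.symm)
  have havst : ∀ (Z : Subgroup M) (u : V), Z ≤ st ρ (av ρ Z u) := fun Z u y hy => fixed_av ρ hy u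
  have havst' : ∀ (Z Z' : Subgroup M) (u : V), Z' ≤ st ρ u → Z' ≤ st ρ (av ρ Z u) := by
    intro Z Z' u hu y hy
    rw [mem_st, av_comm, hu hy]
  have hav0 : ∀ Z₁ ∈ orb σ Y, ∀ Z₂ ∈ orb σ Y, Z₁ ≠ Z₂ → ∀ u ∈ U, av ρ Z₁ (av ρ Z₂ u) = 0 := by
    intro Z₁ h₁ Z₂ h₂ hne u hu
    exact hdisj Z₁ Z₂ (card_orb h₁) (card_orb h₂) hne _ (av_mem ρ hU _ (av_mem ρ hU _ hu))
      (havst _ _) (havst' _ _ _ (havst _ _))
  have hYorb : Y ∈ orb σ Y := mem_orb.2 (Equiv.Perm.SameCycle.refl _ _)
  set e : Module.End F V := ee ρ σ Y with he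
  have heU : ∀ u ∈ U, e u ∈ U := by
    intro u hu
    rw [he, ee_apply]
    exact U.sum_mem fun Z _ => av_mem ρ hU Z hu
  have hee : ∀ u ∈ U, e (e u) = e u := by
    intro u hu
    conv_lhs => rw [he, ee_apply]
    conv_rhs => rw [he, ee_apply]
    refine Finset.sum_congr rfl fun Z hZ => ?_
    rw [ee_apply, map_sum, Finset.sum_eq_single Z]
    · exact av_of_fixed ρ hM (havst Z u)
    · intro Z' hZ' hne
      exact hav0 Z hZ Z' hZ' hne.symm u hu
    · intro h; exact absurd hZ h
  have hev : e v = v := by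
    rw [he, ee_apply, Finset.sum_eq_single Y]
    · exact av_of_fixed ρ hM hYv
    · intro Z hZ hne
      exact hdisj Z Y (card_orb hZ) rfl hne _ (av_mem ρ hU _ hv) (havst _ _) (havst' _ _ _ hYv)
    · intro h; exact absurd hYorb h
  have heh : ∀ u, h (e u) = e (h u) := fun u => ee_comm ρ hh Y u
  have heρ : ∀ m u, ρ m (e u) = e (ρ m u) := fun m u => ee_rho ρ σ Y m u
  set U₁ : Submodule F V := U ⊓ fx e with hU₁
  set U₂ : Submodule F V := U ⊓ LinearMap.ker e with hU₂
  have hm₁ : ∀ {u}, u ∈ U₁ ↔ u ∈ U ∧ e u = u := by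
    intro u
    rw [hU₁, Submodule.mem_inf, mem_fx]
  have hm₂ : ∀ {u}, u ∈ U₂ ↔ u ∈ U ∧ e u = 0 := by
    intro u
    rw [hU₂, Submodule.mem_inf, LinearMap.mem_ker]
  have hdis12 : Disjoint U₁ U₂ := by
    rw [Submodule.disjoint_def]
    intro x hx hx'
    rw [← (hm₁.1 hx).2, (hm₂.1 hx').2]
  have hdim : finrank F U₁ + finrank F U₂ ≤ finrank F U := by
    have h3 := Submodule.finrank_sup_add_finrank_inf_eq U₁ U₂
    rw [hdis12.eq_bot, finrank_bot, add_zero] at h3
    have h5 : finrank F ↥(U₁ ⊔ U₂) ≤ finrank F U :=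
      Submodule.finrank_mono (sup_le inf_le_left inf_le_left)
    omega
  have hsplit : ∀ m : M, finrank F ↥(U ⊓ fx (h ∘ₗ ρ m)) ≤
      finrank F ↥(U₁ ⊓ fx (h ∘ₗ ρ m)) + finrank F ↥(U₂ ⊓ fx (h ∘ₗ ρ m)) := by
    intro m
    refine le_trans (Submodule.finrank_mono ?_)
      (Submodule.finrank_add_le_finrank_add_finrank _ _)
    intro u hu
    obtain ⟨huU, huf⟩ := Submodule.mem_inf.1 hu
    rw [mem_fx, LinearMap.comp_apply] at huf
    have h1 : h (ρ m (e u)) = e u := by
      rw [heρ, heh, huf]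
    have h2 : e u ∈ U₁ ⊓ fx (h ∘ₗ ρ m) := by
      refine Submodule.mem_inf.2 ⟨hm₁.2 ⟨heU u huU, hee u huU⟩, ?_⟩
      rw [mem_fx]
      exact h1
    have h3 : u - e u ∈ U₂ ⊓ fx (h ∘ₗ ρ m) := by
      refine Submodule.mem_inf.2 ⟨hm₂.2 ⟨U.sub_mem huU (heU u huU), ?_⟩, ?_⟩
      · rw [map_sub, hee u huU, sub_self]
      · rw [mem_fx, LinearMap.comp_apply, map_sub, map_sub, huf, h1]
    have : u = e u + (u - e u) := by abel
    rw [this]
    exact Submodule.add_mem_sup h2 h3
  -- the induction hypothesis for `U₂`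
  have hlt : finrank F U₂ < n := by
    have h1 : 0 < finrank F U₁ := by
      rw [Module.finrank_pos_iff_exists_ne_zero]
      exact ⟨⟨v, hm₁.2 ⟨hv, hev⟩⟩, fun h => hv0 (congrArg Subtype.val h)⟩
    omega
  have hI₂ := ih _ hlt U₂ rfl
    (fun m u hu => hm₂.2 ⟨hU m u (hm₂.1 hu).1, by rw [← heρ, (hm₂.1 hu).2, map_zero]⟩)
    (fun u hu => hm₂.2 ⟨hhU u (hm₂.1 hu).1, by rw [← heh, (hm₂.1 hu).2, map_zero]⟩)
    (fun u hu => h0 u (hm₂.1 hu).1)
  rw [finsum_eq_sum_of_fintype] at hI₂
  -- the bound for `U₁`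
  have hI₁ : 2 * ∑ m : M, finrank F ↥(U₁ ⊓ fx (h ∘ₗ ρ m)) ≤ Nat.card M * finrank F U₁ := by
    by_cases hYσ : tau σ Y = Y
    · -- `Y` is normalised
      have horb : ∀ Z, Z ∈ orb σ Y ↔ Z = Y := by
        intro Z
        rw [mem_orb]
        constructor
        · intro hZ
          obtain ⟨i, -, rfl⟩ := hZ.exists_pow_eq'
          clear hZ
          induction i with
          | zero => rfl
          | succ i ih => rw [pow_succ', Equiv.Perm.mul_apply, ih, hYσ]
        · rintro rfl
          exact Equiv.Perm.SameCycle.refl _ _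
      have heY : ∀ u, e u = av ρ Y u := by
        intro u
        rw [he, ee_apply, Finset.sum_eq_single Y]
        · intro Z hZ hne
          exact absurd ((horb Z).1 hZ) hne
        · intro h; exact absurd hYorb h
      have hYU₁ : ∀ u ∈ U₁, Y ≤ st ρ u := by
        intro u hu
        rw [← (hm₁.1 hu).2, heY]
        exact havst Y u
      obtain ⟨x, hx⟩ : ∃ x : M, x ∉ Y := by
        by_contra hcon
        push Not at hcon
        exact hv0 (h0 v hv fun m => hYv (hcon m))
      have hpair : ∀ m : M, finrank F ↥(U₁ ⊓ fx (h ∘ₗ ρ m)) +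
          finrank F ↥(U₁ ⊓ fx (h ∘ₗ ρ (m * x))) ≤ finrank F U₁ := by
        intro m
        have hd : Disjoint (U₁ ⊓ fx (h ∘ₗ ρ m)) (U₁ ⊓ fx (h ∘ₗ ρ (m * x))) := by
          rw [Submodule.disjoint_def]
          intro u hu hu'
          obtain ⟨hu1, hu2⟩ := Submodule.mem_inf.1 hu
          obtain ⟨-, hu3⟩ := Submodule.mem_inf.1 hu'
          rw [mem_fx, LinearMap.comp_apply] at hu2 hu3
          have h1 : ρ m (ρ x u) = ρ m u := by
            apply hinj
            rw [hu2, rho_rho, hu3]
          have h2 : ρ x u = u := rho_inj ρ m h1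
          by_contra hne
          have h4 : Y ≤ st ρ u := hYU₁ u hu1
          have h5 := hYmax (st ρ u) ⟨u, (hm₁.1 hu1).1, hne, le_rfl⟩
          have h6 : Y = st ρ u := Subgroup.eq_of_le_of_card_ge h4 h5
          apply hx
          rw [h6]
          exact h2
        have h3 := Submodule.finrank_sup_add_finrank_inf_eq (U₁ ⊓ fx (h ∘ₗ ρ m))
          (U₁ ⊓ fx (h ∘ₗ ρ (m * x)))
        rw [hd.eq_bot, finrank_bot, add_zero] at h3
        rw [← h3]
        exact Submodule.finrank_mono (sup_le inf_le_left inf_le_left)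
      have hsum := Finset.sum_le_sum (fun (m : M) (_ : m ∈ Finset.univ) => hpair m)
      rw [Finset.sum_add_distrib, Finset.sum_const, Finset.card_univ, smul_eq_mul,
        ← Nat.card_eq_fintype_card] at hsum
      have hshift : ∑ m : M, finrank F ↥(U₁ ⊓ fx (h ∘ₗ ρ (m * x))) =
          ∑ m : M, finrank F ↥(U₁ ⊓ fx (h ∘ₗ ρ m)) :=
        Fintype.sum_equiv (Equiv.mulRight x) _ _ fun m => rfl
      rw [hshift] at hsum
      omega
    · have hb : ∀ m : M, 2 * finrank F ↥(U₁ ⊓ fx (h ∘ₗ ρ m)) ≤ finrank F U₁ := by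
        intro m
        refine bound_of_orbit ρ (σ := σ) (T := h ∘ₗ ρ m) (hinj.comp (rho_inj ρ m)) ?_ ?_ ?_ (Y := Y) ?_ ?_
        · intro m' v
          rw [LinearMap.comp_apply, LinearMap.comp_apply, ← hh, rho_rho, rho_rho, mul_comm]
        · intro m' u hu
          exact hm₁.2 ⟨hU m' u (hm₁.1 hu).1, by rw [← heρ, (hm₁.1 hu).2]⟩
        · intro u hu
          rw [LinearMap.comp_apply]
          refine hm₁.2 ⟨hhU _ (hU m u (hm₁.1 hu).1), ?_⟩
          rw [← heh, ← heρ, (hm₁.1 hu).2]
        · intro u hu h1 h2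
          exact hdisj Y (tau σ Y) rfl (card_tau σ Y) (Ne.symm hYσ) u (hm₁.1 hu).1 h1 h2
        · intro u hu h1
          rw [← (hm₁.1 hu).2, he, ee_apply]
          refine Finset.sum_eq_zero fun Z hZ => ?_
          obtain ⟨i, -, rfl⟩ := (mem_orb.1 hZ).exists_pow_eq'
          exact h1 i
      calc 2 * ∑ m : M, finrank F ↥(U₁ ⊓ fx (h ∘ₗ ρ m))
          = ∑ m : M, 2 * finrank F ↥(U₁ ⊓ fx (h ∘ₗ ρ m)) := Finset.mul_sum _ _ _
        _ ≤ ∑ m : M, finrank F U₁ := Finset.sum_le_sum fun m _ => hb m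
        _ = Nat.card M * finrank F U₁ := by
          rw [Finset.sum_const, Finset.card_univ, smul_eq_mul, ← Nat.card_eq_fintype_card]
  calc 2 * ∑ m : M, finrank F ↥(U ⊓ fx (h ∘ₗ ρ m))
      ≤ 2 * ∑ m : M, (finrank F ↥(U₁ ⊓ fx (h ∘ₗ ρ m)) + finrank F ↥(U₂ ⊓ fx (h ∘ₗ ρ m))) :=
        Nat.mul_le_mul_left _ (Finset.sum_le_sum fun m _ => hsplit m)
    _ = 2 * ∑ m : M, finrank F ↥(U₁ ⊓ fx (h ∘ₗ ρ m)) +
        2 * ∑ m : M, finrank F ↥(U₂ ⊓ fx (h ∘ₗ ρ m)) := by
      rw [Finset.sum_add_distrib, mul_add]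
    _ ≤ Nat.card M * finrank F U₁ + Nat.card M * finrank F U₂ := Nat.add_le_add hI₁ hI₂
    _ = Nat.card M * (finrank F U₁ + finrank F U₂) := (mul_add _ _ _).symm
    _ ≤ Nat.card M * finrank F U := Nat.mul_le_mul_left _ hdim

end core

end Cfsg.Agent.H725.AvgFix
end

-- part: H725/AvgGrp
section
/-!
# The average dimension of fixed spaces in a solvable group

`two_mul_sum_solvable`: in a finite solvable group `G` acting nontrivially and irreducibly on the
finite `F_p`-space `V`, the average of `dim C_V(g)` is at most `dim V / 2`.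
-/

set_option autoImplicit false

namespace Cfsg.Agent.H725.AvgGrp

open Module Cfsg.Agent.H725.AvgFix

/-- Sum over a group from the sums over the cosets of an abelian normal subgroup. -/
theorem two_mul_sum_normal {F V : Type*} [Field F] [AddCommGroup V] [Module F V]
    [FiniteDimensional F V] {H : Type*} [Group H] [Finite H] (ρ : H →* Module.End F V)
    (N : Subgroup H) [hNn : N.Normal] (hcomm : ∀ a ∈ N, ∀ b ∈ N, a * b = b * a)
    (hN : (Nat.card N : F) ≠ 0) (h0 : ∀ v : V, (∀ n ∈ N, ρ n v = v) → v = 0) :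
    2 * ∑ᶠ h : H, finrank F (fx (ρ h)) ≤ Nat.card H * finrank F V := by
  classical
  have : Fintype H := Fintype.ofFinite H
  have : Fintype N := Fintype.ofFinite N
  let inst : CommGroup N :=
    { (inferInstance : Group N) with mul_comm := fun a b => Subtype.ext (hcomm a a.2 b b.2) }
  let ρN : N →* Module.End F V := ρ.comp N.subtype
  have key : ∀ h : H, 2 * ∑ n : N, finrank F (fx (ρ (h * n))) ≤ Nat.card N * finrank F V := by
    intro h
    have hinj : Function.Injective (ρ h) := by
      intro a b hab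
      have h3 := congrArg (ρ h⁻¹) hab
      have h4 : ∀ v : V, ρ h⁻¹ (ρ h v) = v := by
        intro v
        rw [← Module.End.mul_apply, ← map_mul, inv_mul_cancel, map_one, Module.End.one_apply]
      rwa [h4, h4] at h3
    have h1 := two_mul_sum_le (F := F) (V := V) (M := N) ρN hN
      (σ := (MulAut.conjNormal h : MulAut N)) (h := ρ h) hinj ?_ _ ⊤ rfl
      (fun _ _ _ => Submodule.mem_top) (fun _ _ => Submodule.mem_top)
      (fun u _ hu => h0 u fun n hn => hu ⟨n, hn⟩)
    · rw [finsum_eq_sum_of_fintype, finrank_top] at h1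
      refine le_trans (le_of_eq ?_) h1
      congr 1
      refine Finset.sum_congr rfl fun n _ => ?_
      have h2 : ρ h ∘ₗ ρN n = ρ (h * (n : H)) := by
        rw [map_mul]
        rfl
      rw [top_inf_eq, h2]
    · intro m v
      show ρ h (ρ (m : H) v) = ρ ((MulAut.conjNormal h : MulAut N) m : H) (ρ h v)
      rw [MulAut.conjNormal_apply, ← Module.End.mul_apply, ← Module.End.mul_apply, ← map_mul,
        ← map_mul]
      congr 2
      group
  have hsum := Finset.sum_le_sum (fun (h : H) (_ : h ∈ Finset.univ) => key h)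
  rw [Finset.sum_const, Finset.card_univ, smul_eq_mul, ← Nat.card_eq_fintype_card,
    ← Finset.mul_sum, Finset.sum_comm] at hsum
  have hshift : ∀ n : N, ∑ h : H, finrank F (fx (ρ (h * n))) = ∑ h : H, finrank F (fx (ρ h)) := by
    intro n
    exact Fintype.sum_equiv (Equiv.mulRight (n : H)) _ _ fun m => rfl
  rw [Finset.sum_congr rfl (fun n _ => hshift n), Finset.sum_const, Finset.card_univ, smul_eq_mul,
    ← Nat.card_eq_fintype_card] at hsum
  rw [finsum_eq_sum_of_fintype]
  have hpos : 0 < Nat.card N := Nat.card_pos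
  refine Nat.le_of_mul_le_mul_left ?_ hpos
  calc Nat.card N * (2 * ∑ h : H, finrank F (fx (ρ h)))
      = 2 * (Nat.card N * ∑ h : H, finrank F (fx (ρ h))) := by ring
    _ ≤ Nat.card H * (Nat.card N * finrank F V) := hsum
    _ = Nat.card N * (Nat.card H * finrank F V) := by ring

/-- Sums over a group of a function on the image of a homomorphism. -/
theorem sum_comp {G H : Type*} [Group G] [Finite G] [Group H] [Finite H] (π : G →* H)
    (hπ : Function.Surjective π) (f : H → ℕ) :
    ∑ᶠ g : G, f (π g) = Nat.card π.ker * ∑ᶠ h : H, f h := by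
  classical
  have : Fintype G := Fintype.ofFinite G
  have : Fintype H := Fintype.ofFinite H
  rw [finsum_eq_sum_of_fintype, finsum_eq_sum_of_fintype, Finset.mul_sum]
  rw [← Finset.sum_fiberwise_of_maps_to (s := (Finset.univ : Finset G))
    (t := (Finset.univ : Finset H)) (g := π) (fun _ _ => Finset.mem_univ _)]
  refine Finset.sum_congr rfl fun h _ => ?_
  obtain ⟨g₀, rfl⟩ := hπ h
  rw [Finset.sum_congr rfl (g := fun _ => f (π g₀))
    (fun g hg => by rw [(Finset.mem_filter.1 hg).2]), Finset.sum_const, smul_eq_mul]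
  congr 1
  rw [← Fintype.card_subtype, ← Nat.card_eq_fintype_card]
  refine Nat.card_congr
    { toFun := fun g => ⟨g₀⁻¹ * g, by
        rw [MonoidHom.mem_ker, map_mul, map_inv, g.2, inv_mul_cancel]⟩
      invFun := fun k => ⟨g₀ * k, by rw [map_mul, MonoidHom.mem_ker.1 k.2, mul_one]⟩
      left_inv := fun g => by ext; simp
      right_inv := fun k => by ext; simp }

/-- A nontrivial `p`-group has a nonzero fixed vector on a nonzero finite `F_p`-space. -/
theorem exists_fixed {p : ℕ} [hp : Fact p.Prime] {V : Type*} [AddCommGroup V]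
    [Module (ZMod p) V] [Finite V] {N : Type*} [Group N] (ρ : N →* Module.End (ZMod p) V)
    (hN : IsPGroup p N) (hV : ∃ v : V, v ≠ 0) : ∃ v : V, v ≠ 0 ∧ ∀ n : N, ρ n v = v := by
  obtain ⟨v₀, hv₀⟩ := hV
  have hdvd : p ∣ Nat.card V := by
    have h1 : addOrderOf v₀ ∣ p := by
      rw [addOrderOf_dvd_iff_nsmul_eq_zero]
      have : (p : ZMod p) • v₀ = 0 := by rw [ZMod.natCast_self, zero_smul]
      rwa [Nat.cast_smul_eq_nsmul] at this
    have h2 : addOrderOf v₀ ≠ 1 := by rwa [Ne, AddMonoid.addOrderOf_eq_one_iff]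
    have h3 : addOrderOf v₀ = p := ((Nat.dvd_prime hp.out).1 h1).resolve_left h2
    rw [← h3]
    exact addOrderOf_dvd_natCard v₀
  let act : MulAction N V :=
    { smul := fun n v => ρ n v
      one_smul := fun v => by
        show ρ (1 : N) v = v
        rw [map_one, Module.End.one_apply]
      mul_smul := fun a b v => by
        show ρ (a * b) v = ρ a (ρ b v)
        rw [map_mul]; rfl }
  have hfix0 : (0 : V) ∈ MulAction.fixedPoints N V := by
    intro n
    exact map_zero (ρ n)
  obtain ⟨w, hw, hw0⟩ := hN.exists_fixed_point_of_prime_dvd_card_of_fixed_point V hdvd hfix0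
  exact ⟨w, hw0.symm, fun n => hw n⟩

/-- The average bound for solvable groups, faithful action. -/
theorem two_mul_sum_faithful {p : ℕ} [hp : Fact p.Prime] {V : Type*} [AddCommGroup V]
    [Module (ZMod p) V] [Finite V] {G : Type*} [Group G] [Finite G] [Group.IsSolvable G]
    [Nontrivial G] (ρ : G →* Module.End (ZMod p) V) (hinj : Function.Injective ρ)
    (hirr : ∀ U : Submodule (ZMod p) V, (∀ (g : G), ∀ u ∈ U, ρ g u ∈ U) → U = ⊥ ∨ U = ⊤) :
    2 * ∑ᶠ g : G, finrank (ZMod p) (fx (ρ g)) ≤ Nat.card G * finrank (ZMod p) V := by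
  have hfd : FiniteDimensional (ZMod p) V := Module.Finite.of_finite
  obtain ⟨q, N, hq, hNn, hNq, hNc, hN⟩ :=
    Cfsg.Agent.Lib.SolvableNormalP.exists_normal_pSubgroup G
  have : Fact q.Prime := ⟨hq⟩
  -- the fixed space of `N`
  let W : Submodule (ZMod p) V := ⨅ n : N, fx (ρ n)
  have hW : ∀ {w : V}, w ∈ W ↔ ∀ n ∈ N, ρ n w = w := by
    intro w
    simp only [W, Submodule.mem_iInf, mem_fx, Subtype.forall]
  have hmul : ∀ (a b : G) (v : V), ρ a (ρ b v) = ρ (a * b) v := by
    intro a b v
    rw [map_mul]; rfl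
  have hWinv : ∀ (g : G), ∀ u ∈ W, ρ g u ∈ W := by
    intro g u hu
    rw [hW]
    intro n hn
    rw [hmul]
    have h1 : n * g = g * (g⁻¹ * n * g) := by group
    have h2 : g⁻¹ * n * g ∈ N := by
      have := hNn.conj_mem n hn g⁻¹
      rwa [inv_inv] at this
    rw [h1, ← hmul, hW.1 hu _ h2]
  have hWbot : W = ⊥ := by
    rcases hirr W hWinv with h | h
    · exact h
    · exfalso
      apply hN
      rw [Subgroup.eq_bot_iff_forall]
      intro n hn
      apply hinj
      rw [map_one]
      ext v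
      have hv : v ∈ W := by rw [h]; exact Submodule.mem_top
      exact hW.1 hv n hn
  have h0 : ∀ v : V, (∀ n ∈ N, ρ n v = v) → v = 0 := by
    intro v hv
    have : v ∈ W := hW.2 hv
    rw [hWbot] at this
    exact (Submodule.mem_bot _).1 this
  have hqp : q ≠ p := by
    rintro rfl
    have hVne : ∃ v : V, v ≠ 0 := by
      obtain ⟨g, hg⟩ := exists_ne (1 : G)
      by_contra hcon
      push Not at hcon
      apply hg
      apply hinj
      ext v
      rw [hcon v, map_zero, map_zero]
    obtain ⟨w, hw0, hw⟩ := exists_fixed (ρ.comp N.subtype) hNq hVne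
    exact hw0 (h0 w fun n hn => hw ⟨n, hn⟩)
  have hcard : (Nat.card N : ZMod p) ≠ 0 := by
    obtain ⟨k, hk⟩ := IsPGroup.iff_card.1 hNq
    rw [hk, Nat.cast_pow]
    apply pow_ne_zero
    rw [Ne, ZMod.natCast_eq_zero_iff]
    intro h
    exact hqp ((Nat.prime_dvd_prime_iff_eq hp.out hq).1 h).symm
  have hcomm : ∀ a ∈ N, ∀ b ∈ N, a * b = b * a := by
    intro a ha b hb
    exact congrArg Subtype.val (hNc.is_comm.comm ⟨a, ha⟩ ⟨b, hb⟩)
  exact two_mul_sum_normal ρ N hcomm hcard h0

/-- A homomorphism to a monoid factors through a faithful one. -/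
theorem exists_faithful.{u} {E : Type*} [Monoid E] {G : Type u} [Group G] [Finite G]
    [hs : Group.IsSolvable G] (ρ : G →* E) : ∃ (H : Type u) (_ : Group H) (_ : Finite H)
      (_ : Group.IsSolvable H) (π : G →* H) (ρ' : H →* E),
      Function.Surjective π ∧ Function.Injective ρ' ∧ ∀ g, ρ' (π g) = ρ g := by
  have h1 : Finite (G ⧸ ρ.ker) := inferInstance
  have h2 : Group.IsSolvable (G ⧸ ρ.ker) :=
    Group.isSolvable_of_surjective (QuotientGroup.mk'_surjective ρ.ker)
  refine ⟨G ⧸ ρ.ker, _, h1, h2, QuotientGroup.mk' ρ.ker,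
      QuotientGroup.lift ρ.ker ρ (fun g hg => hg), QuotientGroup.mk'_surjective _, ?_,
      fun g => QuotientGroup.lift_mk _ _ _⟩
  intro a b hab
  induction a using QuotientGroup.induction_on with | H a => ?_
  induction b using QuotientGroup.induction_on with | H b => ?_
  rw [QuotientGroup.lift_mk, QuotientGroup.lift_mk] at hab
  rw [QuotientGroup.eq, MonoidHom.mem_ker, map_mul, ← hab, ← map_mul, inv_mul_cancel, map_one]

/-- **The average bound for solvable groups.** -/
theorem two_mul_sum_solvable {p : ℕ} [hp : Fact p.Prime] {V : Type*} [AddCommGroup V]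
    [Module (ZMod p) V] [Finite V] {G : Type*} [Group G] [Finite G] [Group.IsSolvable G]
    (ρ : G →* Module.End (ZMod p) V)
    (hirr : ∀ U : Submodule (ZMod p) V, (∀ (g : G), ∀ u ∈ U, ρ g u ∈ U) → U = ⊥ ∨ U = ⊤)
    (hnt : ∃ (g : G) (v : V), ρ g v ≠ v) :
    2 * ∑ᶠ g : G, finrank (ZMod p) (fx (ρ g)) ≤ Nat.card G * finrank (ZMod p) V := by
  obtain ⟨H, hH, hHf, hHs, π, ρ', hπ, hinj, hρ'⟩ := exists_faithful ρ
  have hnt' : Nontrivial H := by
    obtain ⟨g, v, hgv⟩ := hnt
    refine ⟨⟨π g, 1, fun h => hgv ?_⟩⟩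
    rw [← hρ', h, map_one, Module.End.one_apply]
  have hmain := two_mul_sum_faithful ρ' hinj (by
    intro U hU
    exact hirr U fun g u hu => by
      rw [← hρ']
      exact hU (π g) u hu)
  have hsum : ∑ᶠ g : G, finrank (ZMod p) (fx (ρ g)) =
      Nat.card π.ker * ∑ᶠ h : H, finrank (ZMod p) (fx (ρ' h)) := by
    rw [← sum_comp π hπ]
    exact finsum_congr fun g => by rw [hρ']
  rw [hsum]
  have hcardG : Nat.card G = Nat.card H * Nat.card π.ker := by
    rw [Subgroup.card_eq_card_quotient_mul_card_subgroup π.ker]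
    congr 1
    exact Nat.card_congr (QuotientGroup.quotientKerEquivOfSurjective π hπ).toEquiv
  rw [hcardG]
  calc 2 * (Nat.card π.ker * ∑ᶠ h : H, finrank (ZMod p) (fx (ρ' h)))
      = Nat.card π.ker * (2 * ∑ᶠ h : H, finrank (ZMod p) (fx (ρ' h))) := by ring
    _ ≤ Nat.card π.ker * (Nat.card H * finrank (ZMod p) V) := Nat.mul_le_mul_left _ hmain
    _ = Nat.card H * Nat.card π.ker * finrank (ZMod p) V := by ring

end Cfsg.Agent.H725.AvgGrp
end

-- part: H725/ChiefAvg
section
/-!
# Average number of fixed points on a chief factor of a solvable group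

`chief_sum`: for a chief factor `N / L` of order `p ^ d`, `d ≠ 1`, of the finite solvable group `G`
there are `c g` with `|C_N(g) : C_L(g)|` dividing `p ^ c g` and `2 ∑ c g ≤ |G| d`.
-/

set_option autoImplicit false

namespace Cfsg.Agent.H725.ChiefAvg

open Module Cfsg.Agent.H725.AvgFix Cfsg.Agent.H725.AvgGrp
open Cfsg.Agent.OddOrderCharacters.PF9.SectionModule

universe u

variable {G : Type u} [Group G] [Finite G]

theorem chief_sum [Group.IsSolvable G] {p : ℕ} [hp : Fact p.Prime] (N L : Subgroup G)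
    [hN : N.Normal] [hL : L.Normal] (hLN : L < N)
    (hchief : ∀ M : Subgroup G, M.Normal → L ≤ M → M ≤ N → M = L ∨ M = N)
    (hab : ∀ a ∈ N, ∀ b ∈ N, a * b * a⁻¹ * b⁻¹ ∈ L) (hexp : ∀ a ∈ N, a ^ p ∈ L) :
    ∃ (d : ℕ) (c : G → ℕ), L.relIndex N = p ^ d ∧
      (∀ g, L.relIndex (Subgroup.centralizer ({g} : Set G) ⊓ N) ∣ p ^ (c g)) ∧
      (∀ g, c g ≤ d) ∧ (d ≠ 1 → 2 * ∑ᶠ g : G, c g ≤ Nat.card G * d) := by
  classical
  obtain ⟨V, hV1, hV2, π, hsurj, hadd, hker, hcard⟩ := exists_module p N L
    (fun h _ k hk => hL.conj_mem k hk h) hab hexp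
  obtain ⟨ρ, hρ⟩ := exists_rep_normal (p := p) hsurj hadd hker hN hL
  have hfin : Finite V := Finite.of_surjective π hsurj
  have hfd : FiniteDimensional (ZMod p) V := Module.Finite.of_finite
  have hcardV : Nat.card V = p ^ finrank (ZMod p) V := by
    rw [Module.natCard_eq_pow_finrank (K := ZMod p), Nat.card_zmod]
  have hne : ∃ v : V, v ≠ 0 := by
    obtain ⟨x, hxN, hxL⟩ := Set.exists_of_ssubset (SetLike.coe_ssubset_coe.2 hLN)
    refine ⟨π ⟨x, hxN⟩, fun h => hxL ?_⟩
    exact (hker _).1 h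
  have hirr : ∀ U : Submodule (ZMod p) V, (∀ (g : G), ∀ u ∈ U, ρ g u ∈ U) → U = ⊥ ∨ U = ⊤ := by
    intro U hU
    obtain ⟨K, hKN, hK⟩ := exists_subgroup (p := p) hadd U
    have hLK : L ≤ K := by
      intro x hx
      have hxN : x ∈ N := hLN.le hx
      rw [hK ⟨x, hxN⟩, (hker _).2 hx]
      exact U.zero_mem
    have hKn : K.Normal := by
      constructor
      intro x hx g
      have hxN : x ∈ N := hKN hx
      have h1 := hU g _ ((hK ⟨x, hxN⟩).1 hx)
      rw [hρ] at h1
      exact (hK ⟨g * x * g⁻¹, _⟩).2 h1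
    rcases hchief K hKn hLK hKN with h | h
    · left
      rw [Submodule.eq_bot_iff]
      intro v hv
      obtain ⟨n, rfl⟩ := hsurj v
      rw [hker, ← h, hK]
      exact hv
    · right
      rw [Submodule.eq_top_iff']
      intro v
      obtain ⟨n, rfl⟩ := hsurj v
      rw [← hK, h]
      exact n.2
  refine ⟨finrank (ZMod p) V, fun g => finrank (ZMod p) (fx (ρ g)), ?_, ?_, ?_, ?_⟩
  · rw [← hcard, hcardV]
  · intro g
    set C := Subgroup.centralizer ({g} : Set G) ⊓ N with hC
    let f : C →* Multiplicative (fx (ρ g)) :=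
      { toFun := fun c => Multiplicative.ofAdd ⟨π ⟨c, (Subgroup.mem_inf.1 c.2).2⟩, by
          rw [mem_fx, hρ]
          congr 1
          apply Subtype.ext
          show g * (c : G) * g⁻¹ = c
          have h1 := (Subgroup.mem_inf.1 c.2).1
          rw [Subgroup.mem_centralizer_singleton_iff] at h1
          rw [← h1, mul_inv_cancel_right]⟩
        map_one' := by
          apply Multiplicative.toAdd.injective
          apply Subtype.ext
          show π _ = 0
          exact pi_one hadd
        map_mul' := fun a b => by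
          apply Multiplicative.toAdd.injective
          apply Subtype.ext
          exact hadd ⟨a, (Subgroup.mem_inf.1 a.2).2⟩ ⟨b, (Subgroup.mem_inf.1 b.2).2⟩ }
    have hfker : f.ker = L.subgroupOf C := by
      ext c
      rw [MonoidHom.mem_ker, Subgroup.mem_subgroupOf, ← hker ⟨c, (Subgroup.mem_inf.1 c.2).2⟩]
      constructor
      · intro h
        exact congrArg (fun z => ((Multiplicative.toAdd z : fx (ρ g)) : V)) h
      · intro h
        apply Multiplicative.toAdd.injective
        apply Subtype.ext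
        exact h
    have h1 : L.relIndex C = Nat.card f.range := by
      rw [Subgroup.relIndex, ← hfker, Subgroup.index_ker]
    rw [h1]
    have h2 : Nat.card (Multiplicative (fx (ρ g))) = p ^ finrank (ZMod p) (fx (ρ g)) := by
      rw [Nat.card_congr Multiplicative.toAdd, Module.natCard_eq_pow_finrank (K := ZMod p),
        Nat.card_zmod]
    rw [← h2]
    exact Subgroup.card_subgroup_dvd_card f.range
  · intro g
    exact Submodule.finrank_le _
  · intro hd
    refine two_mul_sum_solvable ρ hirr ?_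
    by_contra hcon
    push Not at hcon
    apply hd
    obtain ⟨v, hv⟩ := hne
    rw [finrank_eq_one_iff_of_nonzero v hv]
    rcases hirr (Submodule.span (ZMod p) {v}) (fun g u hu => by rwa [hcon]) with h | h
    · exfalso
      rw [Submodule.span_singleton_eq_bot] at h
      exact hv h
    · exact h

end Cfsg.Agent.H725.ChiefAvg
end

-- part: H725/QPrim
section
/-!
# Quasi-primitive characters of solvable groups and class sizes

`exists_class`: `χ` irreducible with homogeneous restrictions to all normal subgroups of the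
solvable group `G`, `p` a prime: some `g` has `χ(1)_p` dividing the `p`-part of its class size.
-/

set_option autoImplicit false

namespace Cfsg.Agent.H725.QPrim

open Cfsg Cfsg.Agent.Characters.Core Cfsg.Agent.H725.ChiefAvg

universe u

variable {G : Type u} [Group G]

theorem charDegree_eq {H : Type*} [Group H] {θ : H → ℂ} {n : ℕ} (h : θ 1 = n) :
    charDegree θ = n := by
  rw [charDegree, h, Complex.natCast_re, Nat.floor_natCast]

/-- Homogeneous restrictions. -/
def Homog (χ : G → ℂ) : Prop :=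
  ∀ N : Subgroup G, N.Normal → ∃ (θ : N → ℂ) (e : ℂ), IsIrrCharacter N θ ∧
    (fun n : N => χ n) = e • θ

/-- Primitive characters have homogeneous restrictions. -/
theorem homog_of_primitive [Fintype G] {χ : G → ℂ} (hχ : IsIrrCharacter G χ)
    (hprim : ¬ ∃ (H : Subgroup G), H ≠ ⊤ ∧ ∃ θ : ↥H → ℂ, IsCharacter ↥H θ ∧ indFun H θ = χ) :
    Homog χ := by
  classical
  intro N hN
  have : Fintype N := Fintype.ofFinite N
  -- an irreducible constituent
  have hres : IsCharacter N (fun n : N => χ n) :=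
    Cfsg.Agent.Characters.Clifford.isCharacter_restrict N (isIrr_isCharacter hχ)
  obtain ⟨θ, hθ, hcon⟩ : ∃ θ : N → ℂ, IsIrrCharacter N θ ∧
      classInner (fun n : N => χ n) θ ≠ 0 := by
    by_contra hcon
    push Not at hcon
    have h0 := classFunction_eq_zero (isCharacter_isClassFunction hres) hcon
    exact isIrr_apply_one_ne_zero hχ (congrFun h0 1)
  have hθcl : IsClassFunction N θ := isIrr_isClassFunction hθ
  -- the inertia group
  have hconj : ∀ (g h : G) (n : N), (⟨g * (h * n * h⁻¹) * g⁻¹,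
      hN.conj_mem _ (hN.conj_mem (n : G) n.2 h) g⟩ : N) =
      ⟨(g * h) * n * (g * h)⁻¹, hN.conj_mem (n : G) n.2 (g * h)⟩ := by
    intro g h n
    apply Subtype.ext
    show g * (h * n * h⁻¹) * g⁻¹ = (g * h) * n * (g * h)⁻¹
    group
  let T : Subgroup G :=
    { carrier := {g | ∀ n : N, θ ⟨g * n * g⁻¹, hN.conj_mem (n : G) n.2 g⟩ = θ n}
      one_mem' := by
        intro n
        congr 1
        apply Subtype.ext
        simp
      mul_mem' := by
        intro a b ha hb n
        rw [← hconj]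
        rw [ha ⟨b * n * b⁻¹, hN.conj_mem (n : G) n.2 b⟩, hb]
      inv_mem' := by
        intro a ha n
        have h1 := ha ⟨a⁻¹ * n * a⁻¹⁻¹, hN.conj_mem (n : G) n.2 a⁻¹⟩
        rw [← h1]
        congr 1
        apply Subtype.ext
        show a * (a⁻¹ * n * a⁻¹⁻¹) * a⁻¹ = (n : G)
        group }
  have hT : ∀ g : G, g ∈ T ↔ ∀ n : N, θ ⟨g * n * g⁻¹, hN.conj_mem (n : G) n.2 g⟩ = θ n :=
    fun g => Iff.rfl
  have hNT : N ≤ T := by
    intro x hx n
    have := hθcl n ⟨x, hx⟩
    rw [← this]
    rfl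
  have hTtop : T = ⊤ := by
    by_contra hne
    have : Fintype T := Fintype.ofFinite T
    obtain ⟨ψ, hψ, hind, -⟩ := Cfsg.Agent.S0854.result N θ hθ T hT hNT χ hχ hcon
    exact hprim ⟨T, hne, ψ, isIrr_isCharacter hψ, hind⟩
  refine ⟨θ, classInner (fun n : N => χ n) θ, hθ, ?_⟩
  have h1 := Cfsg.Agent.CharactersDeep.CliffordSum.restrict_eq_smul_sum N hχ hθ hcon
  have h2 : (Finset.univ.image (fun x : G => θ ∘ (MulAut.conjNormal x : MulAut N))) = {θ} := by
    ext φ
    rw [Finset.mem_image, Finset.mem_singleton]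
    constructor
    · rintro ⟨x, -, rfl⟩
      funext n
      have hx : x ∈ T := by rw [hTtop]; exact Subgroup.mem_top x
      exact hx n
    · rintro rfl
      refine ⟨1, Finset.mem_univ _, ?_⟩
      funext n
      simp
  rw [h2, Finset.sum_singleton] at h1
  exact h1

/-- Existence of a maximal normal subgroup below. -/
theorem exists_maximal_normal [Finite G] (N : Subgroup G) (hN : N ≠ ⊥) :
    ∃ L : Subgroup G, L.Normal ∧ L < N ∧
      ∀ M : Subgroup G, M.Normal → L ≤ M → M ≤ N → M = L ∨ M = N := by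
  classical
  have hfin : {L : Subgroup G | L.Normal ∧ L < N}.Finite := Set.toFinite _
  have hne : {L : Subgroup G | L.Normal ∧ L < N}.Nonempty :=
    ⟨⊥, inferInstance, bot_lt_iff_ne_bot.2 hN⟩
  obtain ⟨L, hL, hmax⟩ := Set.exists_max_image _ (fun L : Subgroup G => Nat.card L) hfin hne
  refine ⟨L, hL.1, hL.2, fun M hM hLM hMN => ?_⟩
  rcases eq_or_lt_of_le hMN with h | h
  · exact Or.inr h
  · left
    exact (Subgroup.eq_of_le_of_card_ge hLM (hmax M ⟨hM, h⟩)).symm

theorem card_mul_relIndex {H K : Subgroup G} (h : H ≤ K) :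
    Nat.card H * H.relIndex K = Nat.card K := by
  rw [← Subgroup.relIndex_bot_left, ← Subgroup.relIndex_bot_left]
  exact Subgroup.relIndex_mul_relIndex ⊥ H K bot_le h

/-- The index of intersections. -/
theorem card_inf_eq (C N L : Subgroup G) (hLN : L ≤ N) :
    Nat.card ↥(C ⊓ N) = Nat.card ↥(C ⊓ L) * L.relIndex (C ⊓ N) := by
  have h1 : L.relIndex (C ⊓ N) = (C ⊓ L).relIndex (C ⊓ N) := by
    rw [← Subgroup.inf_relIndex_right]
    congr 1
    rw [inf_comm, inf_assoc, inf_eq_right.2 hLN]
  rw [h1]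
  exact (card_mul_relIndex (inf_le_inf_left C hLN)).symm

/-- The main induction. -/
theorem main [Fintype G] [Group.IsSolvable G] {χ : G → ℂ} (hχ : IsIrrCharacter G χ)
    (hhom : Homog χ) (p : ℕ) [hp : Fact p.Prime] (n : ℕ) :
    ∀ N : Subgroup G, N.Normal → Nat.card N = n → ∀ θ : N → ℂ, IsIrrCharacter N θ →
      (∃ e : ℂ, (fun n : N => χ n) = e • θ) →
      (∑ᶠ g : G, (Nat.card ↥(Subgroup.centralizer ({g} : Set G) ⊓ N)).factorization p) +
        Nat.card G * (charDegree θ).factorization p ≤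
        Nat.card G * (Nat.card N).factorization p := by
  classical
  induction n using Nat.strong_induction_on with | _ n ih =>
  intro N hN hcardN θ hθ hres
  obtain ⟨e, he⟩ := hres
  have he0 : e ≠ 0 := by
    rintro rfl
    have := congrFun he 1
    simp only [Pi.smul_apply, zero_smul] at this
    exact isIrr_apply_one_ne_zero hχ this
  by_cases hNbot : N = ⊥
  · subst hNbot
    have hdeg : charDegree θ = 1 := by
      obtain ⟨m, hm, hm1⟩ := isIrr_apply_one hθ
      have h1 := classInner_irr_self hθ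
      rw [classInner_def, Finset.univ_unique, Finset.sum_singleton] at h1
      have h2 : (default : (⊥ : Subgroup G)) = 1 := rfl
      rw [h2, hm1, Subgroup.card_bot, Nat.cast_one, inv_one, one_mul, Complex.conj_natCast] at h1
      have h3 : m * m = 1 := by exact_mod_cast h1
      have h4 : m = 1 := Nat.eq_one_of_mul_eq_one_left h3
      rw [h4] at hm1
      exact charDegree_eq hm1
    rw [hdeg]
    have : ∀ g : G, (Nat.card ↥(Subgroup.centralizer ({g} : Set G) ⊓ (⊥ : Subgroup G))).factorization p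
        = 0 := by
      intro g
      rw [inf_bot_eq, Subgroup.card_bot, Nat.factorization_one]; rfl
    rw [finsum_congr this]
    simp
  obtain ⟨L, hL, hLN, hchief⟩ := exists_maximal_normal N hNbot
  obtain ⟨hab, q, hq, hexp⟩ :=
    Cfsg.Agent.OddOrderCharacters.PF9.KernelAux.chief_elementary hLN hchief
  have : Fact q.Prime := ⟨hq⟩
  obtain ⟨d, c, hd, hc, hcd, hsum⟩ := chief_sum (p := q) N L hLN hchief hab hexp
  have hcardL : Nat.card L < n := by
    rw [← hcardN]
    exact Set.ncard_lt_ncard (SetLike.coe_ssubset_coe.2 hLN) (Set.toFinite _)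
  have hcardNL : Nat.card N = Nat.card L * q ^ d := by
    rw [← hd]
    exact (card_mul_relIndex hLN.le).symm
  -- the constituent of the restriction to `L`
  have hinv : ∀ (g : G) (n : N), θ ⟨g * n * g⁻¹, hN.conj_mem (n : G) n.2 g⟩ = θ n := by
    intro g n
    have h1 := congrFun he n
    have h2 := congrFun he ⟨g * n * g⁻¹, hN.conj_mem (n : G) n.2 g⟩
    simp only [Pi.smul_apply, smul_eq_mul] at h1 h2
    have h3 := isIrr_isClassFunction hχ n g
    rw [h1, h2] at h3
    exact mul_left_cancel₀ he0 h3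
  have hcomm : ⁅N, N⁆ ≤ L := by
    rw [Subgroup.commutator_le]
    intro a ha b hb
    exact hab a ha b hb
  obtain ⟨φ, e', hφ, hres', hor⟩ : ∃ (φ : L → ℂ) (e' : ℕ), IsIrrCharacter L φ ∧
      (fun x : L => θ ⟨(x : G), hLN.le x.2⟩) = (e' : ℂ) • φ ∧ (e' = 1 ∨ e' ^ 2 = L.relIndex N) := by
    rcases Cfsg.Agent.S0857.result N L hLN hchief hcomm θ hθ hinv with h | h | h
    · exact ⟨_, 1, h, by rw [Nat.cast_one, one_smul], Or.inl rfl⟩
    · obtain ⟨φ, e', h1, h2, h3⟩ := h
      exact ⟨φ, e', h1, h2, Or.inr h3⟩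
    · exfalso
      obtain ⟨F, hF, hFc, hFs⟩ := h
      have : Fintype L := Fintype.ofFinite L
      obtain ⟨ψ, f, hψ, hf⟩ := hhom L hL
      have hd0 : d ≠ 0 := by
        rintro rfl
        rw [pow_zero, mul_one] at hcardNL
        omega
      have hF2 : 1 < F.card := by
        rw [hFc, hd]
        exact Nat.one_lt_pow hd0 hq.one_lt
      obtain ⟨φ₁, h₁, φ₂, h₂, hne⟩ := Finset.one_lt_card.1 hF2
      have hχL : (fun x : L => χ x) = e • ∑ φ ∈ F, φ := by
        rw [← hFs]
        funext x
        exact congrFun he ⟨(x : G), hLN.le x.2⟩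
      have hin : ∀ φ₀ ∈ F, classInner (fun x : L => χ x) φ₀ = e := by
        intro φ₀ hφ₀
        rw [hχL, classInner_smul_left, classInner_sum_left, Finset.sum_eq_single φ₀]
        · rw [classInner_irr_self (hF φ₀ hφ₀), mul_one]
        · intro φ' hφ' hne'
          exact classInner_irr_ne (hF _ hφ') (hF _ hφ₀) hne'
        · intro h; exact absurd hφ₀ h
      have hψeq : ∀ φ₀ ∈ F, φ₀ = ψ := by
        intro φ₀ hφ₀
        by_contra hne'
        have h1 := hin φ₀ hφ₀
        rw [hf, classInner_smul_left, classInner_irr_ne hψ (hF _ hφ₀) (Ne.symm hne'),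
          mul_zero] at h1
        exact he0 h1.symm
      exact hne ((hψeq φ₁ h₁).trans (hψeq φ₂ h₂).symm)
  have hresL : ∃ e₁ : ℂ, (fun n : L => χ n) = e₁ • φ := by
    refine ⟨e * e', ?_⟩
    rw [← smul_smul, ← hres']
    funext x
    exact congrFun he ⟨(x : G), hLN.le x.2⟩
  have hIH := ih _ hcardL L hL rfl φ hφ hresL
  -- degrees
  obtain ⟨m, hm, hm1⟩ := isIrr_apply_one hφ
  have hφdeg : charDegree φ = m := charDegree_eq hm1
  have hθdeg : charDegree θ = e' * m := by
    apply charDegree_eq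
    have h1 := congrFun hres' 1
    simp only [Pi.smul_apply, smul_eq_mul] at h1
    rw [hm1] at h1
    push_cast
    rw [← h1]
    congr 1
  have he'0 : e' ≠ 0 := by
    rintro rfl
    rw [Nat.cast_zero, zero_smul] at hres'
    have := congrFun hres' 1
    exact isIrr_apply_one_ne_zero hθ this
  have hdegfac : (charDegree θ).factorization p = e'.factorization p +
      (charDegree φ).factorization p := by
    rw [hθdeg, hφdeg, Nat.factorization_mul he'0 hm.ne']
    rfl
  have hNfac : (Nat.card N).factorization p = (Nat.card L).factorization p +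
      (q ^ d).factorization p := by
    rw [hcardNL, Nat.factorization_mul Nat.card_pos.ne' (pow_ne_zero _ hq.ne_zero)]
    rfl
  have hgfac : ∀ g : G, (Nat.card ↥(Subgroup.centralizer ({g} : Set G) ⊓ N)).factorization p =
      (Nat.card ↥(Subgroup.centralizer ({g} : Set G) ⊓ L)).factorization p +
      (L.relIndex (Subgroup.centralizer ({g} : Set G) ⊓ N)).factorization p := by
    intro g
    have h0 : L.relIndex (Subgroup.centralizer ({g} : Set G) ⊓ N) ≠ 0 := by
      intro h
      have := hc g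
      rw [h] at this
      exact pow_ne_zero _ hq.ne_zero (Nat.eq_zero_of_zero_dvd this)
    rw [card_inf_eq _ N L hLN.le, Nat.factorization_mul Nat.card_pos.ne' h0]
    rfl
  rw [finsum_congr hgfac, finsum_eq_sum_of_fintype, Finset.sum_add_distrib, hdegfac, hNfac]
  rw [finsum_eq_sum_of_fintype] at hIH
  -- it remains to treat the chief factor
  suffices hch : ∑ g : G, (L.relIndex (Subgroup.centralizer ({g} : Set G) ⊓ N)).factorization p +
      Nat.card G * e'.factorization p ≤ Nat.card G * (q ^ d).factorization p by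
    calc _ = (∑ g : G, (Nat.card ↥(Subgroup.centralizer ({g} : Set G) ⊓ L)).factorization p +
          Nat.card G * (charDegree φ).factorization p) +
          (∑ g : G, (L.relIndex (Subgroup.centralizer ({g} : Set G) ⊓ N)).factorization p +
            Nat.card G * e'.factorization p) := by ring
      _ ≤ Nat.card G * (Nat.card L).factorization p + Nat.card G * (q ^ d).factorization p :=
          Nat.add_le_add hIH hch
      _ = _ := by ring
  have hle : ∀ g : G, (L.relIndex (Subgroup.centralizer ({g} : Set G) ⊓ N)).factorization p ≤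
      (q ^ c g).factorization p := fun g =>
    (Nat.factorization_le_iff_dvd (by
      intro h
      have := hc g
      rw [h] at this
      exact pow_ne_zero _ hq.ne_zero (Nat.eq_zero_of_zero_dvd this))
      (pow_ne_zero _ hq.ne_zero)).2 (hc g) p
  by_cases hqp : q = p
  · subst hqp
    have hqd : ∀ k : ℕ, (q ^ k).factorization q = k := fun k => by
      rw [hq.factorization_pow, Finsupp.single_eq_same]
    simp only [hqd] at hle ⊢
    rcases hor with h | h
    · subst h
      rw [Nat.factorization_one, Finsupp.coe_zero, Pi.zero_apply, mul_zero, add_zero]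
      calc _ ≤ ∑ g : G, d := Finset.sum_le_sum fun g _ => (hle g).trans (hcd g)
        _ = Nat.card G * d := by
          rw [Finset.sum_const, Finset.card_univ, smul_eq_mul, Nat.card_eq_fintype_card]
    · have h2 : 2 * e'.factorization q = d := by
        have h5 : (e' ^ 2).factorization q = (q ^ d).factorization q := by rw [h, hd]
        rw [hqd, Nat.factorization_pow] at h5
        exact h5
      have hd1 : d ≠ 1 := by omega
      have hs := hsum hd1
      rw [finsum_eq_sum_of_fintype] at hs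
      have h3 : ∑ g : G, (L.relIndex (Subgroup.centralizer ({g} : Set G) ⊓ N)).factorization q ≤
          ∑ g : G, c g := Finset.sum_le_sum fun g _ => hle g
      have h4 : 2 * (Nat.card G * e'.factorization q) = Nat.card G * d := by
        rw [← h2]; ring
      omega
  · have hqd : ∀ k : ℕ, (q ^ k).factorization p = 0 := fun k => by
      rw [hq.factorization_pow, Finsupp.single_eq_of_ne (Ne.symm hqp)]
    simp only [hqd] at hle ⊢
    have h0 : e'.factorization p = 0 := by
      rcases hor with h | h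
      · rw [h, Nat.factorization_one]; rfl
      · have h5 : (e' ^ 2).factorization p = (q ^ d).factorization p := by rw [h, hd]
        rw [hqd, Nat.factorization_pow] at h5
        have h6 : 2 * e'.factorization p = 0 := h5
        omega
    rw [h0, mul_zero, add_zero]
    refine le_of_eq (Finset.sum_eq_zero fun g _ => Nat.le_zero.1 (hle g))

/-- **Class sizes and degrees of quasi-primitive characters.** -/
theorem exists_class [Fintype G] [Group.IsSolvable G] {χ : G → ℂ} (hχ : IsIrrCharacter G χ)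
    (hhom : Homog χ) (p : ℕ) [hp : Fact p.Prime] :
    ∃ g : G, (charDegree χ).factorization p ≤
      ((Subgroup.centralizer ({g} : Set G)).index).factorization p := by
  classical
  obtain ⟨m, hm, hm1⟩ := isIrr_apply_one hχ
  have hdeg : charDegree χ = m := charDegree_eq hm1
  let θ : (⊤ : Subgroup G) → ℂ := fun x => χ x
  have hθ : IsIrrCharacter (⊤ : Subgroup G) θ :=
    isIrr_comp (Subgroup.topEquiv : (⊤ : Subgroup G) ≃* G).toMonoidHom
      (Subgroup.topEquiv : (⊤ : Subgroup G) ≃* G).surjective hχ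
  have hmain := main hχ hhom p _ ⊤ inferInstance rfl θ hθ ⟨1, by rw [one_smul]⟩
  have hθdeg : charDegree θ = m := charDegree_eq hm1
  rw [hθdeg, Subgroup.card_top, finsum_eq_sum_of_fintype] at hmain
  rw [hdeg]
  by_contra hcon
  push Not at hcon
  have hlt : ∀ g : G, (Nat.card G).factorization p <
      (Nat.card ↥(Subgroup.centralizer ({g} : Set G) ⊓ (⊤ : Subgroup G))).factorization p +
        m.factorization p := by
    intro g
    rw [inf_top_eq]
    have h1 := (Subgroup.centralizer ({g} : Set G)).card_mul_index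
    have h2 : (Nat.card G).factorization p =
        (Nat.card (Subgroup.centralizer ({g} : Set G))).factorization p +
        ((Subgroup.centralizer ({g} : Set G)).index).factorization p := by
      rw [← h1, Nat.factorization_mul Nat.card_pos.ne' Subgroup.index_ne_zero_of_finite]
      rfl
    rw [h2]
    exact Nat.add_lt_add_left (hcon g) _
  have hsum : ∑ g : G, (Nat.card G).factorization p <
      ∑ g : G, ((Nat.card ↥(Subgroup.centralizer ({g} : Set G) ⊓ (⊤ : Subgroup G))).factorization p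
        + m.factorization p) :=
    Finset.sum_lt_sum_of_nonempty ⟨1, Finset.mem_univ _⟩ fun g _ => hlt g
  rw [Finset.sum_add_distrib, Finset.sum_const, Finset.sum_const, Finset.card_univ, smul_eq_mul,
    smul_eq_mul, ← Nat.card_eq_fintype_card] at hsum
  omega

end Cfsg.Agent.H725.QPrim
end
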